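import Cfsg.Agent.Fisch.F23.E2
import Cfsg.Agent.Fisch.F23.I2
import Cfsg.Agent.Char.Integral

set_option autoImplicit false
set_option maxRecDepth 1000000
set_option maxHeartbeats 0
set_option Elab.async false

namespace CF.Fisch.F23.Mx

open Cfsg CF.Comp CF.Fisch CF.Fisch.F23 Subgroup
open scoped commutatorElement

noncomputable def w1 : List (List Nat) := [[(nat_lit 45), (nat_lit 3), (nat_lit 33), (nat_lit 39), (nat_lit 37), (nat_lit 15), (nat_lit 43), (nat_lit 27), (nat_lit 35), (nat_lit 1), (nat_lit 28), (nat_lit 41), (nat_lit 33), (nat_lit 27), (nat_lit 35), (nat_lit 34), (nat_lit 35), (nat_lit 33), (nat_lit 41), (nat_lit 48), (nat_lit 45), (nat_lit 48)],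
  [(nat_lit 45), (nat_lit 41), (nat_lit 9), (nat_lit 29), (nat_lit 43), (nat_lit 15), (nat_lit 43), (nat_lit 29), (nat_lit 19), (nat_lit 1), (nat_lit 45), (nat_lit 39), (nat_lit 28), (nat_lit 29), (nat_lit 35), (nat_lit 33), (nat_lit 37), (nat_lit 33), (nat_lit 45), (nat_lit 49), (nat_lit 48), (nat_lit 51)]]
noncomputable def w2 : List (List Nat) := [[(nat_lit 17), (nat_lit 30), (nat_lit 48), (nat_lit 27), (nat_lit 1), (nat_lit 35), (nat_lit 15), (nat_lit 35), (nat_lit 39), (nat_lit 19), (nat_lit 28), (nat_lit 30), (nat_lit 43), (nat_lit 30), (nat_lit 34), (nat_lit 51), (nat_lit 39), (nat_lit 33), (nat_lit 45), (nat_lit 41), (nat_lit 44), (nat_lit 23)],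
  [(nat_lit 51), (nat_lit 37), (nat_lit 29), (nat_lit 15), (nat_lit 39), (nat_lit 34), (nat_lit 13), (nat_lit 15), (nat_lit 34), (nat_lit 28), (nat_lit 19), (nat_lit 28), (nat_lit 39), (nat_lit 27), (nat_lit 39), (nat_lit 43), (nat_lit 37), (nat_lit 33), (nat_lit 48), (nat_lit 39), (nat_lit 39), (nat_lit 48), (nat_lit 51)]]
noncomputable def w3 : List (List Nat) := [[(nat_lit 19), (nat_lit 30), (nat_lit 41), (nat_lit 27), (nat_lit 30), (nat_lit 39), (nat_lit 15), (nat_lit 1), (nat_lit 40), (nat_lit 34), (nat_lit 1), (nat_lit 41), (nat_lit 30), (nat_lit 27), (nat_lit 39), (nat_lit 39), (nat_lit 35), (nat_lit 33), (nat_lit 39), (nat_lit 41), (nat_lit 39), (nat_lit 45), (nat_lit 43), (nat_lit 51)],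
  [(nat_lit 30), (nat_lit 28), (nat_lit 13), (nat_lit 45), (nat_lit 30), (nat_lit 39), (nat_lit 15), (nat_lit 34), (nat_lit 3), (nat_lit 27), (nat_lit 1), (nat_lit 33), (nat_lit 51), (nat_lit 30), (nat_lit 48), (nat_lit 39), (nat_lit 41), (nat_lit 33), (nat_lit 45), (nat_lit 49), (nat_lit 39), (nat_lit 45), (nat_lit 47)],
  [(nat_lit 44), (nat_lit 19), (nat_lit 44), (nat_lit 28), (nat_lit 45), (nat_lit 37), (nat_lit 15), (nat_lit 29), (nat_lit 40), (nat_lit 3), (nat_lit 51), (nat_lit 30), (nat_lit 27), (nat_lit 40), (nat_lit 33), (nat_lit 49), (nat_lit 47), (nat_lit 39), (nat_lit 43), (nat_lit 51)]]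
noncomputable def w4 : List (List Nat) := [[(nat_lit 37), (nat_lit 45), (nat_lit 47), (nat_lit 30), (nat_lit 34), (nat_lit 13), (nat_lit 15), (nat_lit 30), (nat_lit 11), (nat_lit 40), (nat_lit 3), (nat_lit 48), (nat_lit 28), (nat_lit 37), (nat_lit 27), (nat_lit 34), (nat_lit 51), (nat_lit 37), (nat_lit 33), (nat_lit 40), (nat_lit 40), (nat_lit 48), (nat_lit 45), (nat_lit 23)],
  [(nat_lit 43), (nat_lit 40), (nat_lit 7), (nat_lit 28), (nat_lit 44), (nat_lit 37), (nat_lit 15), (nat_lit 35), (nat_lit 40), (nat_lit 5), (nat_lit 1), (nat_lit 40), (nat_lit 29), (nat_lit 43), (nat_lit 27), (nat_lit 49), (nat_lit 39), (nat_lit 39), (nat_lit 35), (nat_lit 33), (nat_lit 40), (nat_lit 23)]]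
noncomputable def w5 : List (List Nat) := [[(nat_lit 15), (nat_lit 23), (nat_lit 35), (nat_lit 15), (nat_lit 3), (nat_lit 41), (nat_lit 40), (nat_lit 3), (nat_lit 51), (nat_lit 30), (nat_lit 40), (nat_lit 29), (nat_lit 39), (nat_lit 37), (nat_lit 43), (nat_lit 33), (nat_lit 48), (nat_lit 39), (nat_lit 39), (nat_lit 48), (nat_lit 48)],
  [(nat_lit 34), (nat_lit 49), (nat_lit 28), (nat_lit 15), (nat_lit 44), (nat_lit 40), (nat_lit 15), (nat_lit 30), (nat_lit 27), (nat_lit 44), (nat_lit 1), (nat_lit 35), (nat_lit 28), (nat_lit 45), (nat_lit 28), (nat_lit 43), (nat_lit 33), (nat_lit 37), (nat_lit 33), (nat_lit 41), (nat_lit 48)]]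
noncomputable def w6 : List (List Nat) := [[(nat_lit 23), (nat_lit 40), (nat_lit 19), (nat_lit 27), (nat_lit 11), (nat_lit 35), (nat_lit 15), (nat_lit 28), (nat_lit 49), (nat_lit 3), (nat_lit 39), (nat_lit 28), (nat_lit 51), (nat_lit 37), (nat_lit 47), (nat_lit 33), (nat_lit 39), (nat_lit 45), (nat_lit 39), (nat_lit 45), (nat_lit 49), (nat_lit 51)],
  [(nat_lit 34), (nat_lit 30), (nat_lit 3), (nat_lit 13), (nat_lit 40), (nat_lit 15), (nat_lit 27), (nat_lit 29), (nat_lit 39), (nat_lit 3), (nat_lit 47), (nat_lit 29), (nat_lit 44), (nat_lit 30), (nat_lit 47), (nat_lit 43), (nat_lit 39), (nat_lit 33), (nat_lit 45), (nat_lit 39), (nat_lit 39), (nat_lit 45), (nat_lit 49)]]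
noncomputable def w7 : List (List Nat) := [[(nat_lit 1), (nat_lit 33), (nat_lit 49), (nat_lit 1), (nat_lit 29), (nat_lit 35), (nat_lit 15), (nat_lit 47), (nat_lit 19), (nat_lit 43), (nat_lit 33), (nat_lit 1), (nat_lit 39), (nat_lit 47), (nat_lit 30), (nat_lit 27), (nat_lit 35), (nat_lit 39), (nat_lit 35), (nat_lit 33), (nat_lit 45), (nat_lit 40), (nat_lit 48)],
  [(nat_lit 15), (nat_lit 27), (nat_lit 3), (nat_lit 9), (nat_lit 40), (nat_lit 13), (nat_lit 15), (nat_lit 39), (nat_lit 34), (nat_lit 5), (nat_lit 1), (nat_lit 40), (nat_lit 40), (nat_lit 33), (nat_lit 27), (nat_lit 35), (nat_lit 39), (nat_lit 39), (nat_lit 35), (nat_lit 33), (nat_lit 47), (nat_lit 45), (nat_lit 49)],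
  [(nat_lit 34), (nat_lit 30), (nat_lit 3), (nat_lit 13), (nat_lit 40), (nat_lit 15), (nat_lit 27), (nat_lit 33), (nat_lit 44), (nat_lit 1), (nat_lit 30), (nat_lit 33), (nat_lit 40), (nat_lit 30), (nat_lit 33), (nat_lit 43), (nat_lit 33), (nat_lit 40), (nat_lit 47), (nat_lit 39), (nat_lit 51), (nat_lit 43), (nat_lit 49), (nat_lit 23)]]
noncomputable def w8 : List (List Nat) := [[(nat_lit 47), (nat_lit 1), (nat_lit 35), (nat_lit 48), (nat_lit 27), (nat_lit 27), (nat_lit 39), (nat_lit 13), (nat_lit 15), (nat_lit 43), (nat_lit 19), (nat_lit 5), (nat_lit 44), (nat_lit 27), (nat_lit 44), (nat_lit 29), (nat_lit 45), (nat_lit 41), (nat_lit 33), (nat_lit 41), (nat_lit 40), (nat_lit 40), (nat_lit 44), (nat_lit 23)],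
  [(nat_lit 29), (nat_lit 51), (nat_lit 41), (nat_lit 33), (nat_lit 30), (nat_lit 1), (nat_lit 40), (nat_lit 13), (nat_lit 15), (nat_lit 30), (nat_lit 40), (nat_lit 29), (nat_lit 1), (nat_lit 47), (nat_lit 34), (nat_lit 30), (nat_lit 34), (nat_lit 40), (nat_lit 43), (nat_lit 33), (nat_lit 48), (nat_lit 43), (nat_lit 48), (nat_lit 23)]]
noncomputable def w9 : List (List Nat) := [[(nat_lit 9), (nat_lit 5), (nat_lit 37), (nat_lit 5), (nat_lit 37), (nat_lit 27), (nat_lit 51)]]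
noncomputable def ps : List (List Nat) := [[(nat_lit 15)],
  [(nat_lit 54), (nat_lit 15)],
  [(nat_lit 35), (nat_lit 15)],
  [(nat_lit 26), (nat_lit 41), (nat_lit 15)],
  [(nat_lit 41), (nat_lit 34), (nat_lit 25)]]
noncomputable def ms : List (List Nat) := [[(nat_lit 9), (nat_lit 3), (nat_lit 5), (nat_lit 9), (nat_lit 1), (nat_lit 5), (nat_lit 9), (nat_lit 7), (nat_lit 3), (nat_lit 1), (nat_lit 3), (nat_lit 7), (nat_lit 5), (nat_lit 7), (nat_lit 1), (nat_lit 9), (nat_lit 3), (nat_lit 1), (nat_lit 7), (nat_lit 5), (nat_lit 9), (nat_lit 1), (nat_lit 3), (nat_lit 5), (nat_lit 9), (nat_lit 1), (nat_lit 5), (nat_lit 3), (nat_lit 7), (nat_lit 5), (nat_lit 1), (nat_lit 7), (nat_lit 9), (nat_lit 7), (nat_lit 1), (nat_lit 9), (nat_lit 3), (nat_lit 9), (nat_lit 1), (nat_lit 3), (nat_lit 7), (nat_lit 1), (nat_lit 5), (nat_lit 3), (nat_lit 9), (nat_lit 7), (nat_lit 9), (nat_lit 5), (nat_lit 1), (nat_lit 5)],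
  [(nat_lit 9), (nat_lit 7), (nat_lit 5), (nat_lit 7), (nat_lit 1), (nat_lit 5), (nat_lit 7), (nat_lit 1), (nat_lit 9), (nat_lit 3), (nat_lit 9), (nat_lit 1), (nat_lit 7), (nat_lit 3), (nat_lit 1), (nat_lit 7), (nat_lit 3), (nat_lit 9), (nat_lit 1), (nat_lit 3), (nat_lit 5), (nat_lit 1), (nat_lit 9), (nat_lit 1), (nat_lit 7), (nat_lit 1), (nat_lit 3), (nat_lit 9), (nat_lit 3), (nat_lit 5), (nat_lit 9), (nat_lit 7), (nat_lit 5), (nat_lit 3), (nat_lit 7), (nat_lit 1), (nat_lit 9), (nat_lit 7), (nat_lit 1), (nat_lit 3), (nat_lit 9), (nat_lit 3), (nat_lit 1), (nat_lit 7), (nat_lit 9), (nat_lit 5), (nat_lit 1), (nat_lit 5), (nat_lit 9), (nat_lit 7), (nat_lit 5), (nat_lit 3), (nat_lit 9), (nat_lit 3), (nat_lit 5), (nat_lit 7), (nat_lit 9), (nat_lit 5)],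
  [(nat_lit 1), (nat_lit 7), (nat_lit 5), (nat_lit 1), (nat_lit 9), (nat_lit 7), (nat_lit 1), (nat_lit 7), (nat_lit 3), (nat_lit 1), (nat_lit 9), (nat_lit 5), (nat_lit 3), (nat_lit 1), (nat_lit 7), (nat_lit 1), (nat_lit 5), (nat_lit 7), (nat_lit 9), (nat_lit 7), (nat_lit 3), (nat_lit 5), (nat_lit 7), (nat_lit 9), (nat_lit 5), (nat_lit 3), (nat_lit 9), (nat_lit 7), (nat_lit 9), (nat_lit 1), (nat_lit 3), (nat_lit 9), (nat_lit 7), (nat_lit 1), (nat_lit 7), (nat_lit 9), (nat_lit 3), (nat_lit 1), (nat_lit 9), (nat_lit 5), (nat_lit 9), (nat_lit 7), (nat_lit 5), (nat_lit 3), (nat_lit 9), (nat_lit 3), (nat_lit 5), (nat_lit 7), (nat_lit 9), (nat_lit 5)],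
  [(nat_lit 1), (nat_lit 7), (nat_lit 5), (nat_lit 1), (nat_lit 9), (nat_lit 7), (nat_lit 1), (nat_lit 3), (nat_lit 9), (nat_lit 3), (nat_lit 7), (nat_lit 5), (nat_lit 1), (nat_lit 3), (nat_lit 9), (nat_lit 5), (nat_lit 1), (nat_lit 3), (nat_lit 9), (nat_lit 1), (nat_lit 5), (nat_lit 7), (nat_lit 1), (nat_lit 3), (nat_lit 5), (nat_lit 9), (nat_lit 1), (nat_lit 5), (nat_lit 3), (nat_lit 1), (nat_lit 9), (nat_lit 3), (nat_lit 7), (nat_lit 9), (nat_lit 1), (nat_lit 9), (nat_lit 7), (nat_lit 1), (nat_lit 3), (nat_lit 9), (nat_lit 3), (nat_lit 1), (nat_lit 7), (nat_lit 9), (nat_lit 5), (nat_lit 1)],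
  [(nat_lit 9), (nat_lit 7), (nat_lit 5), (nat_lit 7), (nat_lit 1), (nat_lit 9), (nat_lit 1), (nat_lit 9), (nat_lit 3), (nat_lit 5), (nat_lit 3), (nat_lit 5), (nat_lit 1), (nat_lit 9), (nat_lit 5), (nat_lit 1), (nat_lit 7), (nat_lit 9), (nat_lit 3), (nat_lit 5), (nat_lit 9), (nat_lit 5), (nat_lit 3), (nat_lit 1), (nat_lit 5), (nat_lit 1), (nat_lit 9), (nat_lit 7), (nat_lit 9), (nat_lit 1), (nat_lit 3), (nat_lit 5), (nat_lit 7), (nat_lit 9), (nat_lit 5), (nat_lit 3), (nat_lit 9), (nat_lit 7), (nat_lit 5), (nat_lit 1), (nat_lit 9), (nat_lit 7), (nat_lit 5), (nat_lit 3), (nat_lit 9), (nat_lit 3), (nat_lit 5), (nat_lit 7), (nat_lit 9), (nat_lit 5)],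
  [(nat_lit 5), (nat_lit 7), (nat_lit 9), (nat_lit 7), (nat_lit 1), (nat_lit 7), (nat_lit 3), (nat_lit 1), (nat_lit 9), (nat_lit 5), (nat_lit 3), (nat_lit 1), (nat_lit 7), (nat_lit 1), (nat_lit 5), (nat_lit 7), (nat_lit 9), (nat_lit 7), (nat_lit 3), (nat_lit 5), (nat_lit 7), (nat_lit 9), (nat_lit 5), (nat_lit 3), (nat_lit 9), (nat_lit 7), (nat_lit 9), (nat_lit 1), (nat_lit 3), (nat_lit 9), (nat_lit 7), (nat_lit 1), (nat_lit 7), (nat_lit 9), (nat_lit 3), (nat_lit 1), (nat_lit 9), (nat_lit 5), (nat_lit 9), (nat_lit 7), (nat_lit 5), (nat_lit 3), (nat_lit 9), (nat_lit 3), (nat_lit 5), (nat_lit 7), (nat_lit 9), (nat_lit 5)],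
  [(nat_lit 9), (nat_lit 3), (nat_lit 5), (nat_lit 9), (nat_lit 1), (nat_lit 9), (nat_lit 7), (nat_lit 5), (nat_lit 9), (nat_lit 1), (nat_lit 5), (nat_lit 3), (nat_lit 9), (nat_lit 1), (nat_lit 3), (nat_lit 7), (nat_lit 5), (nat_lit 9), (nat_lit 5), (nat_lit 3), (nat_lit 7), (nat_lit 9), (nat_lit 1), (nat_lit 7), (nat_lit 3), (nat_lit 5), (nat_lit 9), (nat_lit 1), (nat_lit 5), (nat_lit 9), (nat_lit 3), (nat_lit 5), (nat_lit 9), (nat_lit 1), (nat_lit 9), (nat_lit 7), (nat_lit 1), (nat_lit 3), (nat_lit 9), (nat_lit 5), (nat_lit 1), (nat_lit 3), (nat_lit 7), (nat_lit 5), (nat_lit 9), (nat_lit 1), (nat_lit 9), (nat_lit 7), (nat_lit 1), (nat_lit 3), (nat_lit 9), (nat_lit 3), (nat_lit 1), (nat_lit 7), (nat_lit 9), (nat_lit 5), (nat_lit 1), (nat_lit 5), (nat_lit 9), (nat_lit 7), (nat_lit 5), (nat_lit 3), (nat_lit 9), (nat_lit 3), (nat_lit 5), (nat_lit 7), (nat_lit 9), (nat_lit 5)],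
  [(nat_lit 5), (nat_lit 7), (nat_lit 9), (nat_lit 3), (nat_lit 5), (nat_lit 7), (nat_lit 1), (nat_lit 5), (nat_lit 9), (nat_lit 3), (nat_lit 9), (nat_lit 1), (nat_lit 9), (nat_lit 5), (nat_lit 7), (nat_lit 9), (nat_lit 3), (nat_lit 1), (nat_lit 7), (nat_lit 9), (nat_lit 1), (nat_lit 3), (nat_lit 1), (nat_lit 3), (nat_lit 9), (nat_lit 7), (nat_lit 5), (nat_lit 3), (nat_lit 9), (nat_lit 1), (nat_lit 3), (nat_lit 9), (nat_lit 7), (nat_lit 1), (nat_lit 7), (nat_lit 9), (nat_lit 3), (nat_lit 1), (nat_lit 9), (nat_lit 5), (nat_lit 9), (nat_lit 7), (nat_lit 5), (nat_lit 3), (nat_lit 9), (nat_lit 3), (nat_lit 5), (nat_lit 7), (nat_lit 9), (nat_lit 5)],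
  [(nat_lit 1), (nat_lit 9), (nat_lit 5), (nat_lit 3), (nat_lit 1), (nat_lit 9), (nat_lit 5), (nat_lit 3), (nat_lit 1), (nat_lit 7), (nat_lit 9), (nat_lit 3), (nat_lit 1), (nat_lit 5), (nat_lit 9), (nat_lit 3), (nat_lit 1), (nat_lit 9), (nat_lit 7), (nat_lit 5), (nat_lit 1), (nat_lit 5), (nat_lit 3), (nat_lit 9), (nat_lit 3), (nat_lit 1), (nat_lit 7), (nat_lit 9), (nat_lit 3), (nat_lit 5), (nat_lit 9), (nat_lit 7), (nat_lit 5), (nat_lit 3), (nat_lit 9), (nat_lit 3), (nat_lit 5), (nat_lit 7), (nat_lit 9), (nat_lit 5)]]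

/-- the words `ws` are commutators in the group generated by `hs` -/
noncomputable def derOK (e : Sm) (hs ws : List (List Nat)) (uv : List (List Nat × List Nat)) : Bool :=
  lall2 (fun w p => e (lapp w (subst hs (lapp p.2 p.1))) (subst hs (lapp p.1 p.2))) ws uv

theorem c0 : sub (full 31671) (cover N E2.a_W 7 [[], [54], [44, 53]]) = true := by decide +kernel
theorem c1 : sub (full 31671) (cover N (rw w0 [54] :: E2.a_W) 6 [[]]) = true := by decide +kernel
theorem c2 : sub (full 31671) (cover N (rw w0 [44, 53] :: E2.a_W) 6 [[]]) = true := by decide +kernel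
theorem m0 : memOK eq0 (rws w0 ps) E2.a_gs ms = true := by decide +kernel
theorem m1 : comOK eq0 (rws w0 ([] :: ps)) [L3.x2] = true := by decide +kernel

variable {G : Type*} [Group G] {D : Set G} {E : Dom (Cj G) 31671} {f : ℕ → G}

theorem der {e : Sm} (h : IsSm f e) {H : Subgroup G} {k : ℕ} {hs ws : List (List ℕ)}
    (hA : clo f hs ≤ (derivedSeries H k).map H.subtype) (uv : List (List ℕ × List ℕ))
    (hc : derOK e hs ws uv = true) : clo f ws ≤ (derivedSeries H (k + 1)).map H.subtype := clo_le.2 fun w hw => by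
  obtain ⟨p, -, e⟩ := lall2_left hc hw
  have := h.eq e
  rw [ev_lapp, ← ev_evs, ← ev_evs, ev_lapp, ev_lapp, ev_evs, ev_evs, ← mul_assoc, ← eq_mul_inv_iff_mul_eq,
    ← eq_mul_inv_iff_mul_eq] at this
  rw [derivedSeries_succ, map_commutator, this]
  exact commutator_mem_commutator (hA (ev_subst_mem_clo _ _ _)) (hA (ev_subst_mem_clo _ _ _))

variable (M : M23 D E f)
include M

theorem le : clo f E2.a_W ≤ normalizer (zpowers (ev f L3.x2) : Set G) :=
  le_sup_left.trans ((clo_lapp f _ _).ge.trans (E2.ext M).1.le)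

theorem ne : derivedSeries (normalizer (zpowers (ev f L3.x2) : Set G)) 10 ≠
    derivedSeries (normalizer (zpowers (ev f L3.x2) : Set G)) 9 := fun e => by
  have := M.finite
  have h0 : clo f E2.a_W ≤ (derivedSeries (normalizer (zpowers (ev f L3.x2) : Set G)) 0).map (Subgroup.subtype _) := by
    rw [derivedSeries_zero, ← MonoidHom.range_eq_map, range_subtype]; exact le M
  have h1 : clo f w1 ≤ (derivedSeries _ 1).map _ := der M.sm0 h0 [([3], [1, 6]), ([5, 3, 2], [2])] (by decide +kernel)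
  have h2 : clo f w2 ≤ (derivedSeries _ 2).map _ := der M.sm0 h1 [([2], [4]), ([2, 3, 2], [4, 4, 3])] (by decide +kernel)
  have h3 : clo f w3 ≤ (derivedSeries _ 3).map _ := der M.sm0 h2 [([2, 4], [1, 1]), ([1, 3], [1, 3, 4]), ([3], [3, 1])] (by decide +kernel)
  have h4 : clo f w4 ≤ (derivedSeries _ 4).map _ := der M.sm0 h3 [([2, 4], [2, 1, 6]), ([2, 1, 6], [1])] (by decide +kernel)
  have h5 : clo f w5 ≤ (derivedSeries _ 5).map _ := der M.sm0 h4 [([4], [1, 4, 3]), ([3, 2], [4])] (by decide +kernel)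
  have h6 : clo f w6 ≤ (derivedSeries _ 6).map _ := der M.sm0 h5 [([3], [3, 4, 1]), ([4], [2])] (by decide +kernel)
  have h7 : clo f w7 ≤ (derivedSeries _ 7).map _ := der M.sm0 h6 [([2], [2, 3]), ([2], [2, 2, 4]), ([3], [2])] (by decide +kernel)
  have h8 : clo f w8 ≤ (derivedSeries _ 8).map _ := der M.sm0 h7 [([1], [3, 1]), ([5, 3, 6], [2])] (by decide +kernel)
  have h9 : clo f w9 ≤ (derivedSeries _ 9).map _ := der M.sm0 h8 [([3], [2])] (by decide +kernel)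
  obtain ⟨m, hm⟩ := CF.Char.burnside_paqb (p := 2) (q := 3) (a := 11) (b := 13) (by decide) (by decide) (E2.card M)
  have k : ∀ i, derivedSeries (normalizer (zpowers (ev f L3.x2) : Set G)) (9 + i) = derivedSeries _ 9 := fun i => by
    induction i with
    | zero => rfl
    | succ i ih => rw [← add_assoc, derivedSeries_succ, ih, ← derivedSeries_succ, e]
  rw [← k m, le_bot_iff.1 ((derivedSeries_antitone _ (Nat.le_add_left m 9)).trans hm.le), Subgroup.map_bot] at h9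
  exact M.sm0.ne_one (u := nth [] w9 0) (by decide +kernel) (h9 (nth_mem_clo 0))

theorem coatom : IsCoatom (normalizer (zpowers (ev f L3.x2) : Set G)) := by
  have := M.finite
  have cz : ∀ {y}, y ∈ centralizer (zpowers (ev f L3.x2) : Set G) ↔ y ∈ centralizer {ev f L3.x2} := by
    simp [zpowers_eq_closure, centralizer_closure]
  have c : ∀ p ∈ [] :: ps, cw0 f w0 p ∈ centralizer (zpowers (ev f L3.x2) : Set G) := fun p hp =>
    cz.2 (M.sm0.com_le1 m1 ((clo_rws _).ge (subset_closure ⟨p, hp, rfl⟩)))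
  have b0 := c [] (by simp)
  refine ⟨fun e => absurd ((e ▸ E2.card M :).symm.trans (card_top.trans M.card)) (by decide), fun K hK => by_contra fun hn => hK.not_ge fun k hk => ?_⟩
  have cK := (centralizer_le_normalizer _).trans hK.le
  have top : ∀ p r, sub (full 31671) (cover N (rw w0 p :: E2.a_W) r [[]]) = true → cw0 f w0 p ∉ K := fun p r h m =>
    hn (top_le_iff.1 (M.grp.2.2.ge.trans ((closure_le _).2 fun x hx => by
      obtain ⟨g, hg, q, hq, rfl⟩ := M.exists_of_cover (H := K) (List.forall_mem_cons.2 ⟨ev_rw (f := f) .. ▸ m,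
        clo_le.1 ((le M).trans hK.le)⟩) (sv_mono E h (M.all ▸ hx))
      exact mul_mem (mul_mem hg (cK (List.mem_singleton.1 hq ▸ b0))) (inv_mem hg))))
  have h1 : ∀ t ∈ D, t ∈ K → t ∈ centralizer (zpowers (ev f L3.x2) : Set G) := fun t ht m => by
    obtain ⟨g, hg, q, hq, rfl⟩ := M.exists_of_cover (clo_le.1 (le M)) (sv_mono E c0 (M.all ▸ ht))
    have m' := (mul_mem_cancel_left (hK.le hg)).1 ((mul_mem_cancel_right (inv_mem (hK.le hg))).1 m)
    simp only [List.mem_cons, List.not_mem_nil, or_false] at hq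
    rcases hq with rfl | rfl | rfl
    exacts [(mem_normalizer_iff.1 (norm_le_norm_cent _ hg) _).1 b0, (top _ _ c1 m').elim, (top _ _ c2 m').elim]
  have h2 : k * ev f L3.x2 * k⁻¹ ∈ centralizer (clo f E2.a_gs : Set G) := by
    refine centralizer_le (M.sm0.le m0) ?_
    rw [clo_rws, centralizer_closure]
    rintro _ ⟨p, hp, rfl⟩
    have := mem_centralizer_singleton_iff.1 (cz.1 (h1 _ (M.cjD k⁻¹ _ (M.cw0_mem p)) (mul_mem (mul_mem (inv_mem hk)
      (cK (c p (List.mem_cons_of_mem _ hp)))) (inv_mem (inv_mem hk)))))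
    simpa [mul_assoc] using congrArg (fun x => k * x * k⁻¹) this
  have h3 := (E2.xs M).2
  have h4 : ev f L3.x2 ∈ clo f E2.a_gs := (h3.ge (mem_zpowers _)).1
  have h5 := h3.le ⟨(E2.ext M).2.2 ⟨centralizer_le_normalizer _ (centralizer_le (zpowers_le.2 h4) h2), h2⟩, h2⟩
  refine mem_normalizer_of_fin ?_
  rintro _ ⟨a, rfl⟩
  exact conj_zpow (a := k) ▸ zpow_mem h5 a

end CF.Fisch.F23.Mx
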